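import Mathlib

/-!
# S4891, row `PSU_3` in defining characteristic: the linear character (helper476)

`exists_lam` : a character `lam` of `Kˣ`, `|K| = q²`, of order `(q₀² - 1) / gcd(3, q₀ + 1)`.
-/

set_option autoImplicit false

namespace Cfsg.Agent.H476.OC

theorem exists_chi (K : Type*) [Field K] [Finite K] : ∃ f : Kˣ →* ℂˣ, Function.Injective f := by
  classical
  have h0 : NeZero (Nat.card Kˣ) := ⟨Nat.card_pos.ne'⟩
  let e : Kˣ ≃* rootsOfUnity (Nat.card Kˣ) ℂ :=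
    mulEquivOfCyclicCardEq (Complex.card_rootsOfUnity _).symm
  exact ⟨(rootsOfUnity (Nat.card Kˣ) ℂ).subtype.comp e.toMonoidHom, Subtype.val_injective.comp e.injective⟩

/-- `a ^ (2 j + 1) ≡ a (mod a² - 1)` -/
theorem dvd_sub_pow (a j : ℕ) : a ^ 2 - 1 ∣ a ^ (2 * j + 1) - a := by
  have h1 : a ^ 2 - 1 ∣ (a ^ 2) ^ j - 1 := by
    have := Nat.sub_dvd_pow_sub_pow (a ^ 2) 1 j
    rwa [one_pow] at this
  have h2 : a ^ (2 * j + 1) - a = ((a ^ 2) ^ j - 1) * a := by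
    rw [Nat.sub_mul, one_mul, ← pow_mul, ← pow_succ]
  rw [h2]
  exact Dvd.dvd.mul_right h1 a

/-- the numbers of the row -/
theorem exists_num {p f q : ℕ} (hp : p.Prime) (hp2 : p ≠ 2) (hf : f ≠ 0) (hq : q = p ^ f) :
    ∃ n m e : ℕ, n ≠ 0 ∧ ¬ p ∣ n ∧ ¬ p ∣ m ∧ n * e = q ^ 2 - 1 ∧ ¬ n ∣ q + 1 ∧ (3 ∣ q + 1 → 3 ∣ e) ∧
      ∀ i : ℕ, n ∣ p ^ (i * m) - 1 := by
  obtain ⟨k, f0, hf0, hf'⟩ := Nat.exists_eq_pow_mul_and_not_dvd hf p hp.ne_one
  have hodd : p % 2 = 1 := Nat.odd_iff.1 (hp.odd_of_ne_two hp2)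
  have hf00 : f0 ≠ 0 := by
    rintro rfl
    exact hf0 (dvd_zero p)
  obtain ⟨a, ha⟩ : ∃ a, a = p ^ f0 := ⟨_, rfl⟩
  have hp3 : 3 ≤ p := by have := hp.two_le; omega
  have ha3 : 3 ≤ a := by
    rw [ha]
    calc 3 ≤ p ^ 1 := by rwa [pow_one]
      _ ≤ p ^ f0 := Nat.pow_le_pow_right (by omega) (by omega)
  have haodd : a % 2 = 1 := by
    rw [ha]
    exact Nat.odd_iff.1 (Odd.pow (Nat.odd_iff.2 hodd))
  have hpa : p ∣ a := by
    rw [ha]
    exact dvd_pow_self p hf00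
  obtain ⟨j, hj⟩ : ∃ j, p ^ k = 2 * j + 1 := by
    have : Odd (p ^ k) := Odd.pow (Nat.odd_iff.2 hodd)
    exact this
  have hqa : q = a ^ (2 * j + 1) := by
    rw [hq, hf', ha, ← pow_mul, ← hj, mul_comm]
  -- the modulus
  have hN1 : a ^ 2 - 1 = (a + 1) * (a - 1) := by
    have := Nat.sq_sub_sq a 1
    rwa [one_pow] at this
  have ha2 : 1 ≤ a ^ 2 := Nat.one_le_pow _ _ (by omega)
  have hN0 : a ^ 2 - 1 ≠ 0 := by
    have : 3 ^ 2 ≤ a ^ 2 := Nat.pow_le_pow_left ha3 2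
    omega
  obtain ⟨g, hg, hg0, hg3⟩ : ∃ g, g ∣ a ^ 2 - 1 ∧ (g = 1 ∨ g = 3) ∧ (3 ∣ a + 1 → g = 3) := by
    by_cases h3 : 3 ∣ a + 1
    · exact ⟨3, by rw [hN1]; exact Dvd.dvd.mul_right h3 _, Or.inr rfl, fun _ => rfl⟩
    · exact ⟨1, one_dvd _, Or.inl rfl, fun h => absurd h h3⟩
  obtain ⟨n, hn⟩ := hg
  have hnd : n ∣ a ^ 2 - 1 := ⟨g, by rw [hn, mul_comm]⟩
  have hn0 : n ≠ 0 := by
    rintro rfl
    rw [mul_zero] at hn
    exact hN0 hn
  have hq2 : a ^ 2 - 1 ∣ q ^ 2 - 1 := by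
    have h1 := Nat.sub_dvd_pow_sub_pow (a ^ 2) 1 (2 * j + 1)
    rw [one_pow, ← pow_mul, mul_comm 2, pow_mul, ← hqa] at h1
    exact h1
  obtain ⟨e', he'⟩ := hq2
  refine ⟨n, 2 * f0, g * e', hn0, ?_, ?_, ?_, ?_, ?_, ?_⟩
  · intro h
    have h1 : p ∣ a ^ 2 - 1 := h.trans hnd
    have h2 : p ∣ a ^ 2 := hpa.trans (dvd_pow_self a two_ne_zero)
    have h3 : p ∣ 1 := by
      have := Nat.dvd_sub h2 h1
      rwa [Nat.sub_sub_self ha2] at this
    exact hp.one_lt.ne' (Nat.dvd_one.1 h3)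
  · intro h
    rcases (hp.dvd_mul).1 h with h | h
    · exact hp2 ((Nat.prime_dvd_prime_iff_eq hp Nat.prime_two).1 h)
    · exact hf0 h
  · rw [he', hn]
    ring
  · intro h
    have h1 : n ∣ q - a := by
      rw [hqa]
      exact hnd.trans (dvd_sub_pow a j)
    have haq : a ≤ q := by
      rw [hqa]
      exact Nat.le_self_pow (by omega) a
    have h2 : n ∣ a + 1 := by
      have h3 : q + 1 = (q - a) + (a + 1) := by omega
      rw [h3] at h
      exact (Nat.dvd_add_right h1).1 h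
    obtain ⟨c, hc⟩ := h2
    have h3 : g * n = n * (c * (a - 1)) := by
      rw [← hn, hN1, hc]
      ring
    have h4 : g = c * (a - 1) := by
      have := Nat.eq_of_mul_eq_mul_left (Nat.pos_of_ne_zero hn0) ((mul_comm n g).trans h3)
      exact this
    have h5 : 2 ∣ g := by
      rw [h4]
      exact Dvd.dvd.mul_left (by omega) c
    omega
  · intro h
    have h1 : g = 3 := by
      apply hg3
      have h2 : a % 3 = 0 ∨ a % 3 = 1 ∨ a % 3 = 2 := by omega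
      have h3 : q % 3 = (a % 3) ^ (2 * j + 1) % 3 := by rw [hqa, Nat.pow_mod]
      rcases h2 with h2 | h2 | h2
      · rw [h2, zero_pow (by omega)] at h3
        omega
      · rw [h2, one_pow] at h3
        omega
      · omega
    rw [h1]
    exact Dvd.intro e' rfl
  · intro i
    have h1 : p ^ (i * (2 * f0)) = (a ^ 2) ^ i := by
      rw [ha, ← pow_mul, ← pow_mul]
      congr 1
      ring
    rw [h1]
    have := Nat.sub_dvd_pow_sub_pow (a ^ 2) 1 i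
    rw [one_pow] at this
    exact hnd.trans this

/-- **the linear character** -/
theorem exists_lam (K : Type*) [Field K] [Finite K] {p q : ℕ} [Fact p.Prime] [CharP K p] (hp2 : p ≠ 2)
    (hq : Nat.card K = q ^ 2) : ∃ (lam : Kˣ →* ℂˣ) (n m : ℕ), n ≠ 0 ∧ ¬ p ∣ n ∧ ¬ p ∣ m ∧ (∀ x, lam x ^ n = 1) ∧
      (∃ t, lam t ^ (q + 1) ≠ 1) ∧ (∀ z : Kˣ, z ^ 3 = 1 → z ^ (q + 1) = 1 → lam z = 1) ∧
      ∀ (i : ℕ) (x : Kˣ), lam (x ^ p ^ (i * m)) = lam x := by
  have hp : p.Prime := Fact.out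
  obtain ⟨f, hf0, hf⟩ : ∃ f, f ≠ 0 ∧ q = p ^ f := by
    have hex : ∃ s, Nat.card K = p ^ s := by
      let _ := Fintype.ofFinite K
      obtain ⟨n, -, h⟩ := FiniteField.card K p
      exact ⟨n, by rw [Nat.card_eq_fintype_card, h]⟩
    obtain ⟨t, ht⟩ := hex
    have h1 : q ∣ p ^ t := by rw [← ht, hq]; exact dvd_pow_self q two_ne_zero
    obtain ⟨s, -, hs⟩ := (Nat.dvd_prime_pow hp).1 h1
    refine ⟨s, ?_, hs⟩
    rintro rfl
    rw [hs, pow_zero, one_pow] at hq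
    have := Finite.one_lt_card (α := K)
    omega
  obtain ⟨n, m, e, hn0, hpn, hpm, hne, hnq, h3e, hi⟩ := exists_num hp hp2 hf0 hf
  obtain ⟨χ, hχ⟩ := exists_chi K
  have hcard : Nat.card Kˣ = n * e := by rw [Nat.card_units, hq, hne]
  have hn1 : ∀ x : Kˣ, (χ ^ e) x ^ n = 1 := fun x => by
    rw [MonoidHom.pow_apply, ← pow_mul, mul_comm e n, ← hcard, ← map_pow, pow_card_eq_one', map_one]
  refine ⟨χ ^ e, n, m, hn0, hpn, hpm, hn1, ?_, fun z hz hz' => ?_, fun i x => ?_⟩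
  · obtain ⟨t, ht⟩ := IsCyclic.exists_generator (α := Kˣ)
    refine ⟨t, fun h => hnq ?_⟩
    rw [MonoidHom.pow_apply, ← pow_mul, ← map_pow] at h
    have h1 : t ^ (e * (q + 1)) = 1 := hχ (by rw [h, map_one])
    have h2 : n * e ∣ e * (q + 1) := by
      rw [← hcard, ← orderOf_eq_card_of_forall_mem_zpowers ht]
      exact orderOf_dvd_of_pow_eq_one h1
    have he0 : 0 < e := by
      apply Nat.pos_of_ne_zero
      rintro rfl
      rw [mul_zero] at hcard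
      exact Nat.card_pos.ne' hcard
    rw [mul_comm n e] at h2
    exact Nat.dvd_of_mul_dvd_mul_left he0 h2
  · rw [MonoidHom.pow_apply, ← map_pow]
    by_cases h3 : 3 ∣ q + 1
    · obtain ⟨d, hd⟩ := h3e h3
      rw [hd, pow_mul, hz, one_pow, map_one]
    · have h1 : z = 1 := by
        have h2 : orderOf z ∣ 3 := orderOf_dvd_of_pow_eq_one hz
        have h4 : orderOf z ∣ q + 1 := orderOf_dvd_of_pow_eq_one hz'
        rcases (Nat.dvd_prime Nat.prime_three).1 h2 with h5 | h5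
        · exact orderOf_eq_one_iff.1 h5
        · exact absurd (h5 ▸ h4) h3
      rw [h1, one_pow, map_one]
  · obtain ⟨d, hd⟩ := hi i
    have h1 : p ^ (i * m) = n * d + 1 := by
      have : 0 < p ^ (i * m) := Nat.pow_pos hp.pos
      omega
    rw [h1, pow_succ, map_mul, map_pow, pow_mul, hn1, one_pow, one_mul]

end Cfsg.Agent.H476.OC
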